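import Cfsg.Agent.H7.Fi23.Main
import Cfsg.Agent.H7.Fi22.Main

set_option autoImplicit false
set_option maxRecDepth 100000

namespace CfsgH7.Fi23

open MulAction

def zw22 : List Nat := wpow [2, 4, 6, 8, 10, 12, 14] 9
def RS' : List (List Nat) := Fi22.RS.dropLast

theorem satK : Sat (subGen g W1) RS' :=
  subGen_sat (sat.follows (invs := invs0) (by decide +kernel)).2

noncomputable def zK : genW g W1 := wprod (subGen g W1) zw22

theorem zK_coe : (zK : Cfsg.Spor.Fi23) = z := by
  unfold zK
  rw [coe_wprod_subGen, ← z_eq]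
  exact congrArg _ (by decide +kernel)

theorem zK_center : zK ∈ Subgroup.center (genW g W1) := by
  rw [Subgroup.mem_center_iff]
  intro x
  apply Subtype.ext
  rw [Subgroup.coe_mul, Subgroup.coe_mul, zK_coe]
  exact z_comm _ (K_eq ▸ x.2)

theorem zK_order : orderOf zK = 2 := by rw [← Subgroup.orderOf_coe, zK_coe, z_order]

instance zK_normal : (Subgroup.zpowers zK).Normal := normal_zpowers_of_center zK_center

theorem satQ : Sat (fun k => QuotientGroup.mk' (Subgroup.zpowers zK) (subGen g W1 k)) Fi22.RS := by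
  have e : Fi22.RS = RS' ++ [zw22] := by decide +kernel
  rw [e]
  refine (satK.map _).append (Sat.cons ?_ (Sat.nil _))
  rw [← map_wprod]
  exact (QuotientGroup.eq_one_iff _).2 (Subgroup.mem_zpowers _)

theorem card_K : Nat.card (genW g W1) = 129123503308800 := by rw [K_eq, card_stab]

theorem genK : genW (subGen g W1) (gensW 9) = ⊤ := subGen_gen g W1

noncomputable def ψ : Cfsg.Spor.Fi22 →* genW g W1 ⧸ Subgroup.zpowers zK := coxLift (Fi22.satC satQ)

theorem ψ_bij : Function.Bijective ψ := by
  have h1 : genW (fun k => QuotientGroup.mk' (Subgroup.zpowers zK) (subGen g W1 k)) (gensW 9) = ⊤ := by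
    rw [← genW_map, genK, ← MonoidHom.range_eq_map, MonoidHom.range_eq_top]
    exact QuotientGroup.mk'_surjective _
  have h2 : Function.Surjective ψ := surj_of_gens ψ h1 fun k hk =>
    ⟨Fi22.g k, coxLift_pg_lt (Fi22.satC satQ) (by decide) k hk⟩
  apply h2.bijective_of_nat_card_le
  have h3 := Subgroup.card_eq_card_quotient_mul_card_subgroup (Subgroup.zpowers zK)
  rw [card_K, Nat.card_zpowers, zK_order] at h3
  rw [Fi22.card]
  omega

theorem perfectK : commutator (genW g W1) = ⊤ := by
  have hf := satK.follows (invs := Fi22.invs0) (rels := [(0,1),(1,2),(2,3),(3,4),(4,5),(5,6),(3,7),(7,8)].map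
    fun p : Nat × Nat => wpow [2 * p.1, 2 * p.2] 3) (by decide +kernel)
  have br : ∀ a b : Nat, a ∈ Fi22.invs0 → b ∈ Fi22.invs0 →
      (a, b) ∈ [(0,1),(1,2),(2,3),(3,4),(4,5),(5,6),(3,7),(7,8)] →
      Abelianization.of (subGen g W1 b) = Abelianization.of (subGen g W1 a) := fun a b ha hb h =>
    (braid_eq _ (hf.1 a ha) (hf.1 b hb) (by
      simpa [wprod_wpow, wprod_cons, letter_even] using hf.2 _ (List.mem_map_of_mem h))).symm
  have h0 : Abelianization.of (subGen g W1 0) = Abelianization.of (subGen g W1 0) := rfl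
  have h1 := (br 0 1 (by decide) (by decide) (by decide)).trans h0
  have h2 := (br 1 2 (by decide) (by decide) (by decide)).trans h1
  have h3 := (br 2 3 (by decide) (by decide) (by decide)).trans h2
  have h4 := (br 3 4 (by decide) (by decide) (by decide)).trans h3
  have h5 := (br 4 5 (by decide) (by decide) (by decide)).trans h4
  have h6 := (br 5 6 (by decide) (by decide) (by decide)).trans h5
  have h7 := (br 3 7 (by decide) (by decide) (by decide)).trans h3
  have h8 := (br 7 8 (by decide) (by decide) (by decide)).trans h7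
  refine perfect_of_odd genK (hf.1 0 (by decide)) (fun k hk => ?_) (w := wpow [0, 2, 4, 6, 8, 10, 14] 9)
    (satK _ (by decide +kernel)) (by decide +kernel) (by decide +kernel)
  interval_cases k <;> assumption

theorem center22 : Subgroup.center Cfsg.Spor.Fi22 = ⊥ := by
  have := Fi22.simple
  rcases (inferInstance : (Subgroup.center Cfsg.Spor.Fi22).Normal).eq_bot_or_eq_top with e | e
  · exact e
  · exfalso
    have hc : IsMulCommutative Cfsg.Spor.Fi22 :=
      ⟨⟨fun a b => Subgroup.mem_center_iff.1 (e ▸ Subgroup.mem_top b) a⟩⟩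
    letI : CommGroup Cfsg.Spor.Fi22 := { (inferInstance : Group Cfsg.Spor.Fi22) with mul_comm := hc.1.1 }
    have := IsSimpleGroup.prime_card (α := Cfsg.Spor.Fi22)
    rw [Fi22.card] at this
    exact absurd (this.eq_one_or_self_of_dvd 2 (by norm_num)) (by norm_num)

theorem cover : Cfsg.IsNonsplitDoubleCover (genW g W1) Cfsg.Spor.Fi22 :=
  nonsplit_of zK_order zK_center center22 (MulEquiv.ofBijective ψ ψ_bij).symm perfectK

end CfsgH7.Fi23
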